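import Cfsg.Agent.Lib.Chev.Cores
import Cfsg.Agent.Lib.Chev.RootComb

/-!
The root subgroups of the non-simple positive roots lie in the derived group of `U`.
-/

set_option autoImplicit false

namespace Cfsg.Lib.WCU

open Cfsg.Lib.Chev RootSys PreSys

variable {ι Φ : Type} [Fintype ι] [DecidableEq ι] {R : RootSys ι Φ}

theorem exists_bottom {b : Φ} (hb : R.IsPos b) (h1 : ∀ i, b ≠ R.simple i) :
    ∃ i s, ∃ k : ℕ, 0 < k ∧ k ≤ 3 ∧ R.IsPos s ∧ s ≠ R.simple i ∧
      R.α b = k • R.α (R.simple i) + R.α s ∧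
      (∀ m, R.α m ≠ R.α s - (0 + 1) • R.α (R.simple i)) ∧ R.pair (R.simple i) s ≤ -k := by
  classical
  obtain ⟨i, -, hi⟩ := hb.exists_pair_pos
  let P : ℕ → Prop := fun m => ∃ s, R.α b = m • R.α (R.simple i) + R.α s
  have bd : ∀ m, P m → m ≤ 3 := fun m ⟨s, hs⟩ => by
    simpa using chain_le (p := 0) (m := s) hs (by simp)
  have mx : ∀ m, P m → m ≤ Nat.findGreatest P 3 := fun m hm => Nat.le_findGreatest (bd m hm) hm
  have p0 : ∀ n : ℕ, R.pair (R.simple i) b = n → P n := fun n hn =>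
    ⟨R.sref i b, by rw [α_sref', hn, natCast_zsmul]; abel⟩
  obtain ⟨n, hn⟩ := Int.eq_ofNat_of_zero_le hi.le
  have hk : 0 < Nat.findGreatest P 3 := lt_of_lt_of_le (by omega) (mx n (p0 n hn))
  obtain ⟨s, hs⟩ : P (Nat.findGreatest P 3) :=
    Nat.findGreatest_spec (bd n (p0 n hn)) (p0 n hn)
  obtain ⟨j, hj, hj'⟩ := R.exists_ne_of_ne_simple (h1 i) ((isPos_simple i).ne_neg hb)
  have e : R.α s j = R.α b j := by
    rw [hs, R.α_simple]; simp [Pi.single_eq_of_ne hj]
  have hs' : 0 < R.α s j := e ▸ lt_of_le_of_ne (hb j) hj'.symm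
  refine ⟨i, s, _, hk, Nat.findGreatest_le 3, isPos_of_pos hs', ?_, hs, fun m hm => ?_, ?_⟩
  · rintro rfl
    simp [R.α_simple, Pi.single_eq_of_ne hj] at hs'
  · have := mx (Nat.findGreatest P 3 + 1) ⟨m, by rw [hs, hm, add_smul, add_smul]; simp⟩
    omega
  · have h2 := mx n (p0 n hn)
    have h3 := pair_of_comb (i := Nat.findGreatest P 3) (j := 1) (k := b) (r := R.simple i) (s := s)
      (by rw [hs, natCast_zsmul, one_smul]) (R.simple i)
    rw [pair_self] at h3
    omega

theorem cr_eq_none {r s : Φ} (h1 : s ≠ R.neg r) (h : R.pair r s ≤ -2) {j : ℕ} (hj : 2 ≤ j) :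
    R.cr s r j = none := by
  rcases e : R.cr s r j with _ | k
  · rfl
  exfalso
  rw [cr_eq_some] at e
  have e' : R.α k = (j : ℤ) • R.α s + (1 : ℤ) • R.α r := by rw [e, natCast_zsmul, one_smul]
  have h2 : R.pair s r = -1 := by
    have := pair_eq_one (r := r) (s := R.neg s) (fun e => h1 (R.neg_eq_iff.1 e))
      (by rw [pair_neg_right]; omega)
    rw [pair_neg_left] at this
    omega
  have h3 := pair_of_comb e' s
  rw [pair_self, h2] at h3
  have h4 : k ≠ s := by
    rintro rfl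
    rw [pair_self] at h3
    omega
  have h5 := pair_eq_one (R := R) h4 (by omega)
  have h6 := R.ln_mul_pair s k
  have h7 := R.ln_mul_pair r s
  have h8 := ln_of_comb e'
  rw [h5, h3] at h6
  rw [h2] at h7 h8
  have p1 := R.ln_pos r
  have p2 := R.ln_pos s
  rcases (by omega : j = 2 ∨ 3 ≤ j) with rfl | h9
  · push_cast at h6 h8
    nlinarith
  · nlinarith [mul_nonneg (by omega : (0 : ℤ) ≤ j - 3) (mul_nonneg (by omega : (0 : ℤ) ≤ j) p2.le)]

theorem vand {F B : Type*} [Field F] [AddCommGroup B] {f₁ f₂ f₃ : F →+ B}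
    (h : ∀ t u, f₁ (t * u) + f₂ (t ^ 2 * u) + f₃ (t ^ 3 * u) = 0) {a b c : F} (ha : a ≠ 0)
    (hb : b ≠ 0) (hc : c ≠ 0) (hab : a ≠ b) (hac : a ≠ c) (hbc : b ≠ c) (w : F) :
    f₂ w = 0 ∧ f₃ w = 0 := by
  have e1 : ∀ t, t ≠ 0 → ∀ w, f₁ w + f₂ (t * w) + f₃ (t ^ 2 * w) = 0 := fun t ht w => by
    have := h t (w / t)
    rwa [show t * (w / t) = w by field_simp, show t ^ 2 * (w / t) = t * w by field_simp,
      show t ^ 3 * (w / t) = t ^ 2 * w by field_simp] at this
  have e2 : ∀ t t', t ≠ 0 → t' ≠ 0 → t ≠ t' → ∀ w, f₂ w + f₃ ((t + t') * w) = 0 :=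
    fun t t' ht ht' h w => by
      have h' := sub_ne_zero.2 h
      have h1 := e1 t ht (w / (t - t'))
      have h2 := e1 t' ht' (w / (t - t'))
      rw [show w = t * (w / (t - t')) - t' * (w / (t - t')) by field_simp,
        show (t + t') * (t * (w / (t - t')) - t' * (w / (t - t'))) =
          t ^ 2 * (w / (t - t')) - t' ^ 2 * (w / (t - t')) by ring, map_sub, map_sub]
      rw [← sub_zero (0 : B)]
      nth_rw 1 [← h1]
      rw [← h2]
      abel
  have e3 : ∀ w, f₃ w = 0 := fun w => by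
    have h' := sub_ne_zero.2 hbc
    have h1 := e2 a b ha hb hab (w / (b - c))
    have h2 := e2 a c ha hc hac (w / (b - c))
    rw [show w = (a + b) * (w / (b - c)) - (a + c) * (w / (b - c)) by field_simp; ring, map_sub,
      sub_eq_zero, eq_neg_of_add_eq_zero_right h1, eq_neg_of_add_eq_zero_right h2]
  exact ⟨by simpa [e3] using e2 a b ha hb hab w, e3 w⟩

theorem prod_filterMap {α β M : Type*} [Monoid M] (l : List (Option α × β)) (f : α × β → M) :
    ((l.filterMap fun c => c.1.map fun k => (k, c.2)).map f).prod =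
      (l.map fun c => c.1.elim 1 fun k => f (k, c.2)).prod := by
  induction l with
  | nil => rfl
  | cons c l ih =>
    obtain ⟨_ | k, d⟩ := c <;> simp [ih]

variable {F : Type*} [Field F] {G : Type*} [Group G] (C : ChevSys R F G)

/-- The positive root elements as elements of `U`. -/
def xU (r : Φ) (t : F) : C.U := if h : R.IsPos r then ⟨C.x r t, C.x_mem_U h t⟩ else 1

theorem coe_xU {r : Φ} (h : R.IsPos r) (t : F) : (xU C r t : G) = C.x r t := by simp [xU, h]

theorem xU_add (r : Φ) (t u : F) : xU C r (t + u) = xU C r t * xU C r u := by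
  unfold xU
  split_ifs
  · exact Subtype.ext (C.x_add r t u)
  · simp

/-- The images of the root elements in the abelianisation of `U`. -/
def ab (o : Option Φ) : F →+ Additive (Abelianization C.U) :=
  AddMonoidHom.mk' (fun t => .ofMul (o.elim 1 fun k => Abelianization.of (xU C k t))) fun t u => by
    cases o <;> simp [xU_add]

theorem ab_none (t : F) : ab C none t = 0 := rfl

theorem ab_some (k : Φ) (t : F) : ab C (some k) t = .ofMul (Abelianization.of (xU C k t)) := rfl

variable {C} {T : ChevTab R}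

theorem ab_rel (hT : T.StrongComm C.x) {r s : Φ} (hr : R.IsPos r) (hs : R.IsPos s) (h : s ≠ r)
    (t u : F) : ((T.cands r s).map fun c =>
      ab C c.1 ((c.2.1 : F) * (-t) ^ c.2.2.1 * u ^ c.2.2.2)).sum = 0 := by
  have h1 : xU C s u * xU C r t = xU C r t * xU C s u * T.commProd (xU C) r s t u := by
    refine Subtype.ext ?_
    have := T.map_commProd C.U.subtype (xU C) r s t u
    simp only [Subgroup.coe_mul, coe_xU C hr, coe_xU C hs, hT r s h (hr.ne_neg hs)]
    rw [Subgroup.coe_subtype] at this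
    rw [this, ChevTab.commProd, ChevTab.commProd]
    congr 2
    exact List.map_congr_left fun c hc =>
      (coe_xU C ((T.between_of_mem_terms hc).isPos hr hs) _).symm
  have h2 := congrArg Abelianization.of h1
  rw [map_mul, map_mul, map_mul, mul_comm, left_eq_mul, T.map_commProd, ChevTab.commProd,
    ChevTab.terms, prod_filterMap] at h2
  have h3 := congrArg Additive.ofMul h2
  rw [ofMul_list_prod, List.map_map] at h3
  refine Eq.trans (congrArg _ (List.map_congr_left fun c _ => ?_)) h3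
  obtain ⟨_ | k, d⟩ := c <;> rfl

theorem ab_eq_zero [Fintype Φ] (hT : T.StrongComm C.x)
    (hF : (∀ r s, R.ln r = R.ln s) ∨ ∃ a b c : F, a ≠ 0 ∧ b ≠ 0 ∧ c ≠ 0 ∧ a ≠ b ∧ a ≠ c ∧ b ≠ c)
    {b : Φ} (hb : R.IsPos b) (h1 : ∀ i, b ≠ R.simple i) (t : F) : ab C (some b) t = 0 := by
  obtain ⟨N, hN⟩ : ∃ N, ∀ r, R.ht r ≤ N :=
    let ⟨N, h⟩ := (Set.finite_range R.ht).bddAbove; ⟨N, fun r => h ⟨r, rfl⟩⟩
  induction e : (N - R.ht b).toNat using Nat.strong_induction_on generalizing b t with
  | _ n ih =>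
  have IH : ∀ o : Option Φ, (∀ k, o = some k → R.ht b < R.ht k) → ∀ t, ab C o t = 0 := by
    rintro (_ | k) h t
    · rfl
    have h2 := h k rfl
    have h3 := hb.ht_pos
    have h4 := hN k
    refine ih _ (by omega) (isPos_iff_ht.2 (by omega)) (fun i e => ?_) t rfl
    rw [e, ht_simple] at h2
    omega
  obtain ⟨i, s, k, k0, k3, hs, h2, h3, h4, h5⟩ := exists_bottom hb h1
  have hr := isPos_simple (R := R) i
  have hsp := hs.ht_pos
  have H : ∀ {a r s : Φ} {j : ℕ}, R.cr r s j = some a → R.ht a = j * R.ht r + R.ht s :=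
    fun h => by rw [ht, cr_eq_some.1 h, map_add, map_nsmul, nsmul_eq_mul]; rfl
  have hb' := H (cr_eq_some.2 h3)
  rw [ht_simple] at hb'
  have z : ∀ j, 2 ≤ j → ∀ t, ab C (R.cr s (R.simple i) j) t = 0 := fun j hj t => by
    rcases (by omega : k = 1 ∨ 2 ≤ k) with rfl | hk
    · refine IH _ (fun a ha => ?_) t
      rw [H ha, ht_simple, hb']
      have : (2 : ℤ) ≤ j := by exact_mod_cast hj
      push_cast
      nlinarith
    · rw [cr_eq_none (hr.ne_neg hs) (by omega) hj, ab_none]
  have rel : ∀ t u, ab C (R.cr (R.simple i) s 1) (T.M (R.simple i) s 1 * -(t * u)) +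
      ab C (R.cr (R.simple i) s 2) (T.M (R.simple i) s 2 * (t ^ 2 * u)) +
      ab C (R.cr (R.simple i) s 3) (T.M (R.simple i) s 3 * -(t ^ 3 * u)) = 0 := fun t u => by
    have := ab_rel hT hr hs h2 t u
    simp only [ChevTab.cands, List.map_cons, List.map_nil, List.sum_cons, List.sum_nil,
      z 2 le_rfl, z 3 (by norm_num)] at this
    rw [IH ((R.cr (R.simple i) s 3).bind _), IH ((R.cr s (R.simple i) 3).bind _)] at this
    · simp only [add_zero, zero_add, ← add_assoc] at this
      rw [← this]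
      congr 1
      · congr 1 <;> (congr 1; ring1)
      · congr 1; ring1
    · intro a ha
      obtain ⟨c, h6, h7⟩ := Option.bind_eq_some_iff.1 ha
      rw [H h7, H h6, ht_simple]
      push_cast
      omega
    · intro a ha
      obtain ⟨c, h6, h7⟩ := Option.bind_eq_some_iff.1 ha
      rw [H h7, H h6, ht_simple]
      push_cast
      omega
  have hM : ((T.M (R.simple i) s k : ℤ) : F) * T.M (R.simple i) s k = 1 := by
    have := T.M_abs _ _ _ s k 0 h2 (hr.ne_neg hs) k0 h3 (by simp) h4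
    rw [zero_add, Nat.choose_self] at this
    rcases Int.natAbs_eq_iff.1 this with h | h <;> simp [h]
  rw [← cr_eq_some.2 h3]
  rcases (by omega : k = 1 ∨ 2 ≤ k) with rfl | hk
  · have := rel 1 (-(T.M (R.simple i) s 1 * t))
    rw [IH (R.cr _ s 2), IH (R.cr _ s 3), add_zero, add_zero] at this
    · convert this using 2
      linear_combination -t * hM
    all_goals
      intro a ha
      rw [H ha, ht_simple]
      push_cast
      omega
  obtain hl | ⟨a, b', c, ha, hb'', hc, hab, hac, hbc⟩ := hF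
  · exact absurd (R.neg_eq_iff.1 (eq_of_pair_two (s := R.neg s) (hl _ _) (by rw [pair_neg_right]; omega)))
      (hr.ne_neg hs)
  have key := vand (f₁ := (ab C _).comp (AddMonoidHom.mulLeft (-(T.M (R.simple i) s 1 : F))))
    (f₂ := (ab C _).comp (AddMonoidHom.mulLeft (T.M (R.simple i) s 2 : F)))
    (f₃ := (ab C _).comp (AddMonoidHom.mulLeft (-(T.M (R.simple i) s 3 : F))))
    (fun t u => by simpa using rel t u) ha hb'' hc hab hac hbc
  rcases (by omega : k = 2 ∨ k = 3) with rfl | rfl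
  · have := (key (T.M (R.simple i) s 2 * t)).1
    simp only [AddMonoidHom.comp_apply, AddMonoidHom.coe_mulLeft] at this
    convert this using 2
    linear_combination -t * hM
  · have := (key (-(T.M (R.simple i) s 3 * t))).2
    simp only [AddMonoidHom.comp_apply, AddMonoidHom.coe_mulLeft] at this
    convert this using 2
    linear_combination -t * hM

theorem x_mem_comm [Fintype Φ] (hT : T.StrongComm C.x)
    (hF : (∀ r s, R.ln r = R.ln s) ∨ ∃ a b c : F, a ≠ 0 ∧ b ≠ 0 ∧ c ≠ 0 ∧ a ≠ b ∧ a ≠ c ∧ b ≠ c)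
    {b : Φ} (hb : R.IsPos b) (h1 : ∀ i, b ≠ R.simple i) (t : F) : C.x b t ∈ ⁅C.U, C.U⁆ := by
  have h2 : xU C b t ∈ commutator C.U := by
    rw [← Abelianization.ker_of]
    exact ab_eq_zero hT hF hb h1 t
  rw [← Subgroup.map_subtype_commutator, ← coe_xU C hb]
  exact ⟨_, h2, rfl⟩

end Cfsg.Lib.WCU
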