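import Cfsg.Agent.Lib.WCU.Comm
import Cfsg.Agent.Lib.Chev.OverE
import Cfsg.Agent.Lib.PGroup.Frattini

/-!
Weakly closed subgroups of `U` are unipotent radicals.
-/

set_option autoImplicit false

namespace Cfsg.Lib.WCU

open Cfsg.Lib.Chev RootSys PreSys ChevSys Subgroup

theorem single_mem {ι F : Type*} [Fintype ι] [DecidableEq ι] [Field F] [Fintype F]
    {L : Subring (ι → F)} (h1 : ∀ i t, t ≠ 0 → ∃ m ∈ L, m i = t ^ 2)
    (h2 : ∀ i j, i ≠ j → ∃ m ∈ L, (m i = 1 ∧ m j ≠ 1) ∨ (m j = 1 ∧ m i ≠ 1)) (i : ι) (c : F) :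
    Pi.single i c ∈ L := by
  have a1 : ∀ t, ∃ m ∈ L, m i = t ^ 2 := fun t => by
    rcases eq_or_ne t 0 with rfl | h
    exacts [⟨0, L.zero_mem, by simp⟩, h1 i t h]
  have a2 : ∃ m ∈ L, m i = c := by
    rcases eq_or_ne (ringChar F) 2 with h | h
    · obtain ⟨t, rfl⟩ := FiniteField.isSquare_of_char_two h c
      simpa only [sq] using a1 t
    · have h' : (2 : F) ≠ 0 := Ring.two_ne_zero h
      obtain ⟨m, hm, e⟩ := a1 (c / 2 + 1)
      obtain ⟨m', hm', e'⟩ := a1 (c / 2)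
      refine ⟨m - m' - 1, sub_mem (sub_mem hm hm') L.one_mem, ?_⟩
      simp only [Pi.sub_apply, e, e', Pi.one_apply]
      field_simp
      ring
  have q : Fintype.card F - 1 ≠ 0 := by have := Fintype.one_lt_card (α := F); omega
  have a3 : ∀ j, j ≠ i → ∃ e ∈ L, e i = 1 ∧ e j = 0 := fun j hj => by
    obtain ⟨m, hm, ⟨e1, e2⟩ | ⟨e1, e2⟩⟩ := h2 i j hj.symm
    · exact ⟨1 - (m - 1) ^ (Fintype.card F - 1), sub_mem L.one_mem (pow_mem (sub_mem hm L.one_mem) _),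
        by simp [e1, q], by simp [FiniteField.pow_card_sub_one_eq_one _ (sub_ne_zero.2 e2)]⟩
    · exact ⟨(m - 1) ^ (Fintype.card F - 1), pow_mem (sub_mem hm L.one_mem) _,
        by simp [FiniteField.pow_card_sub_one_eq_one _ (sub_ne_zero.2 e2)], by simp [e1, q]⟩
  choose! e he e1 e2 using a3
  obtain ⟨m, hm, rfl⟩ := a2
  convert mul_mem hm (prod_mem (t := Finset.univ.erase i) fun j hj => he j (Finset.ne_of_mem_erase hj))
  funext j
  rw [Pi.mul_apply, Finset.prod_apply]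
  rcases eq_or_ne j i with rfl | h
  · rw [Pi.single_eq_same, Finset.prod_eq_one fun k hk => e1 k (Finset.ne_of_mem_erase hk), mul_one]
  · rw [Pi.single_eq_of_ne h, Finset.prod_eq_zero (i := j) (s := Finset.univ.erase i)
      (f := fun c => e c j) (by simpa using h) (e2 j h), mul_zero]

variable {ι Φ : Type} [Fintype ι] [DecidableEq ι] {R : RootSys ι Φ}
variable {F : Type*} [Field F] {G : Type*} [Group G] {C : ChevSys R F G}

theorem eq_of_le_sup_comm {p : ℕ} [Fact p.Prime] {Q M : Subgroup G} [Finite Q] (hQ : IsPGroup p Q)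
    (hR : M ≤ Q) (h : Q ≤ M ⊔ ⁅Q, Q⁆) : M = Q := by
  have h1 : M.subgroupOf Q ⊔ frattini Q = ⊤ := top_le_iff.1 fun x _ => by
    have h2 : M ⊔ ⁅Q, Q⁆ ≤ (M.subgroupOf Q ⊔ frattini Q).map Q.subtype := sup_le
      (by conv_lhs => rw [← map_subgroupOf_eq_of_le hR]
          exact map_mono le_sup_left) (by
        rw [← map_subtype_commutator]
        exact map_mono ((PGroup.commutator_le_frattini hQ).trans le_sup_right))
    obtain ⟨y, hy, e⟩ := h2 (h x.2)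
    rwa [← Subtype.ext e]
  exact le_antisymm hR (subgroupOf_eq_top.1 (frattini_nongenerating h1))

variable (C) in
/-- The coordinate of `g` at the `i`-th fundamental root is `t`. -/
def Co (i : ι) (g : G) (t : F) : Prop := g * C.x (R.simple i) (-t) ∈ C.Ui i

theorem conj_Ui (i : ι) (t : F) {g : G} (hg : g ∈ C.Ui i) :
    C.x (R.simple i) t * g * (C.x (R.simple i) t)⁻¹ ∈ C.Ui i :=
  (mem_normalizer_iff.1 (C.x_mem_normalizer_Ui (.inl (isPos_simple i)) t) g).1 hg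

theorem exists_co (i : ι) {g : G} (hg : g ∈ C.U) : ∃ t, Co C i g t := by
  obtain ⟨u, hu, t, rfl⟩ := (C.mem_U_iff i).1 hg
  exact ⟨t, by simpa [Co, C.x_neg] using hu⟩

theorem Co.mul {i : ι} {g g' : G} {t t' : F} (h : Co C i g t) (h' : Co C i g' t') :
    Co C i (g * g') (t + t') := by
  unfold Co
  convert mul_mem h (conj_Ui i t h') using 1
  rw [neg_add_rev, C.x_add, C.x_neg, C.x_neg]
  group

theorem Co.inv {i : ι} {g : G} {t : F} (h : Co C i g t) : Co C i g⁻¹ (-t) := by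
  unfold Co
  convert conj_Ui i (-t) (inv_mem h) using 1
  simp [C.x_neg]

theorem Co.conj {i : ι} {g k : G} {t : F} {c : Φ → Fˣ} (h : Co C i g t) (hk : C.Acts k 1 c) :
    Co C i (k * g * k⁻¹) (c (R.simple i) * t) := by
  have := hk.conj (R.simple i) (-t)
  rw [Equiv.Perm.one_apply, mul_neg] at this
  unfold Co PreSys.Ui
  convert hk.conj_mem (T := {r | R.IsPos r ∧ r ≠ R.simple i}) (fun _ h => h) h using 1
  rw [← this]
  simp [mul_assoc]

theorem ht_two {r s k : Φ} (hr : R.IsPos r) (hs : R.IsPos s) (h : R.Between r s k) (i : ι) :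
    k ≠ R.simple i := by
  rintro rfl
  have := h.ht_le hr hs
  have := hr.ht_pos
  have := hs.ht_pos
  rw [ht_simple] at *
  omega

variable [Fintype Φ]

theorem mem_of_Ui (hF : C.Faithful) {g : G} (h0 : g ∈ C.U) (h : ∀ i, g ∈ C.Ui i) :
    g ∈ C.XS {r | R.IsPos r ∧ ∀ i, r ≠ R.simple i} := by
  have : ∀ A : Finset ι, g ∈ C.XS {r | R.IsPos r ∧ ∀ i ∈ A, r ≠ R.simple i} := fun A => by
    induction A using Finset.induction_on with
    | empty => simpa [PreSys.U] using h0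
    | insert i A _ ih =>
      refine C.XS_mono ?_ (hF.mem_XS_inter (f := htL ι) ?_ ?_
        (fun _ h => h.1) (fun _ h => h.1.ht_pos) ih (h i))
      · exact fun r hr => ⟨hr.1.1, Finset.forall_mem_insert .. |>.2 ⟨hr.2.2, hr.1.2⟩⟩
      · exact fun r hr s hs k hk => ⟨hk.isPos hr.1 hs.1, fun j _ => ht_two hr.1 hs.1 hk j⟩
      · exact fun r hr s hs k hk => ⟨hk.isPos hr.1 hs.1, ht_two hr.1 hs.1 hk i⟩
  simpa using this Finset.univ

omit [Fintype Φ] in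
theorem exists_single [Fintype F]
    (hs : ∀ i j, i ≠ j → ∃ r, ∃ t : Fˣ,
      (R.pair r (R.simple i) = 0 ∧ t ^ R.pair r (R.simple j) ≠ 1) ∨
      (R.pair r (R.simple j) = 0 ∧ t ^ R.pair r (R.simple i) ≠ 1))
    {X : Subgroup G} (hX : X ≤ C.U) (hH : ∀ k ∈ C.H, ∀ g ∈ X, k * g * k⁻¹ ∈ X) {i : ι}
    (hi : ¬ X ≤ C.Ui i) (t : F) : ∃ g ∈ X, ∀ j, Co C j g (Pi.single (M := fun _ => F) i t j) := by
  let Z : AddSubgroup (ι → F) :=
    { carrier := {v | ∃ g ∈ X, ∀ j, Co C j g (v j)}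
      zero_mem' := ⟨1, one_mem _, fun j => by simp [Co]⟩
      add_mem' := fun ⟨g, h1, h2⟩ ⟨g', h3, h4⟩ => ⟨_, mul_mem h1 h3, fun j => (h2 j).mul (h4 j)⟩
      neg_mem' := fun ⟨g, h1, h2⟩ => ⟨_, inv_mem h1, fun j => (h2 j).inv⟩ }
  let L : Subring (ι → F) :=
    { carrier := {m | ∀ v ∈ Z, m * v ∈ Z}
      zero_mem' := fun v _ => by simp
      one_mem' := fun v h => by simpa using h
      add_mem' := fun h h' v hv => by rw [add_mul]; exact add_mem (h v hv) (h' v hv)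
      neg_mem' := fun h v hv => by rw [neg_mul]; exact neg_mem (h v hv)
      mul_mem' := fun h h' v hv => by rw [mul_assoc]; exact h _ (h' v hv) }
  have hL : ∀ r (t : Fˣ), (fun j => ((t ^ R.pair r (R.simple j) : Fˣ) : F)) ∈ L :=
    fun r t v ⟨g, h1, h2⟩ => ⟨_, hH _ (C.h_mem_H r t) g h1, fun j => (h2 j).conj (C.acts_h r t)⟩
  obtain ⟨g, hg, hg'⟩ := SetLike.not_le_iff_exists.1 hi
  choose v hv using fun j => exists_co j (hX hg)
  have h0 : v i ≠ 0 := fun e => hg' (by simpa [Co, e] using hv i)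
  have := single_mem (L := L) (fun j t ht => ⟨_, hL (R.simple j) (Units.mk0 t ht), by
    simp [zpow_ofNat]⟩) (fun j k h => ?_) i (t / v i) v ⟨g, hg, hv⟩
  · suffices Pi.single i (t / v i) * v = Pi.single (M := fun _ => F) i t from this ▸ ‹_›
    funext j
    rcases eq_or_ne j i with rfl | h
    · simp [h0]
    · simp [h]
  · obtain ⟨r, t, h⟩ := hs j k h
    exact ⟨_, hL r t, h.imp (fun h => ⟨by simp [h.1], mt Units.val_eq_one.1 h.2⟩)
      fun h => ⟨by simp [h.1], mt Units.val_eq_one.1 h.2⟩⟩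

theorem eq_UJ [Fintype F] (hF : C.Faithful) {T : ChevTab R} (hT : T.StrongComm C.x)
    (hq : (∀ r s, R.ln r = R.ln s) ∨ ∃ a b c : F, a ≠ 0 ∧ b ≠ 0 ∧ c ≠ 0 ∧ a ≠ b ∧ a ≠ c ∧ b ≠ c)
    (hs : ∀ i j, i ≠ j → ∃ r, ∃ t : Fˣ,
      (R.pair r (R.simple i) = 0 ∧ t ^ R.pair r (R.simple j) ≠ 1) ∨
      (R.pair r (R.simple j) = 0 ∧ t ^ R.pair r (R.simple i) ≠ 1))
    {X : Subgroup G} (hX : X ≤ C.U) (hw : ∀ g ∈ C.grp, X.map (MulAut.conj g).toMonoidHom ≤ C.U →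
      X.map (MulAut.conj g).toMonoidHom = X) : ∃ J, X = C.UJ J := by
  let J : Set ι := {i | X ≤ C.Ui i}
  have N : ∀ g ∈ C.grp, (∀ a ∈ X, g * a * g⁻¹ ∈ C.U) → g ∈ normalizer (X : Set G) := fun g hg h =>
    mem_normalizer_iff_map_conj_eq.2 (hw g hg (by rintro _ ⟨a, ha, rfl⟩; exact h a ha))
  have hB : C.B ≤ normalizer (X : Set G) := fun g hg => N g (C.B_le_grp hg) fun a ha =>
    (mem_normalizer_iff.1 (C.B_le_normalizer_U hg) a).1 (hX ha)
  have hP : C.P J ≤ normalizer (X : Set G) := sup_le hB ((closure_le _).2 (by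
    rintro _ ⟨i, hi, rfl⟩
    refine N _ (C.N_le_grp (C.n_mem_N _ _)) fun a ha => (C.acts_n_one _).conj_mem ?_ (hi ha)
    exact fun r hr => R.refl_simple i ▸ hr.1.sref hr.2))
  have h1 : X ≤ C.UJ J := fun a ha => by
    refine C.XS_mono (fun r hr => fJ_pos_iff.2 ⟨hr.1, fun h => ?_⟩) (hF.mem_XS_WJ (J := J)
      isClosed_pos isClosed_pos (fun _ h => h) (fun _ h => h) (hX ha)
      fun p hp => hX ((mem_normalizer_iff.1 (hP hp) a).1 ha))
    obtain ⟨w, h1, h2⟩ := induction_inJ (p := fun r => ∃ w ∈ R.WJ J, ¬ R.IsPos (w r))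
      (fun i hi => ⟨_, sref_mem_WJ hi, by
        rw [sref_simple, isPos_neg_iff, not_not]; exact isPos_simple i⟩)
      (fun i hi r _ ⟨w, h1, h2⟩ => ⟨_, mul_mem h1 (sref_mem_WJ hi), by simpa using h2⟩) h
    exact h2 (hr.2 w h1)
  have hY : C.XS {r | R.IsPos r ∧ R.InJ J r} ≤ C.U := C.XS_mono fun _ h => h.1
  obtain ⟨p, hc⟩ := CharP.exists F
  have := Fact.mk (CharP.char_is_prime F p)
  have : Finite C.U := Nat.finite_of_card_ne_zero (by rw [hF.card_U]; exact pow_ne_zero _ Nat.card_pos.ne')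
  have h2 := eq_of_le_sup_comm (C.toPreSys.isPGroup_U p) (sup_le hX hY) (XS_le.2 fun r hr t => by
    by_cases h : ∀ i, r ≠ R.simple i
    · exact mem_sup_right (x_mem_comm hT hq hr h t)
    obtain ⟨i, rfl⟩ : ∃ i, r = R.simple i := by simpa using h
    by_cases hi : i ∈ J
    · exact mem_sup_left (mem_sup_right (C.x_mem (by exact ⟨hr, inJ_simple_iff.2 hi⟩) t))
    obtain ⟨g, hg, h3⟩ := exists_single hs hX
      (fun k hk g hg => (mem_normalizer_iff.1 (hB (C.H_le_B hk)) g).1 hg) hi t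
    have h4 := mem_of_Ui hF (mul_mem (hX hg) (C.x_mem_U hr (-t))) fun j => by
      rcases eq_or_ne j i with rfl | e
      · simpa [Co] using h3 j
      · exact mul_mem (by simpa [Co, e] using h3 j)
          (C.x_mem (by exact ⟨hr, fun e' => e (R.simple_injective e').symm⟩) _)
    have h5 := mul_mem (inv_mem (mem_sup_right (S := X ⊔ C.XS {r | R.IsPos r ∧ R.InJ J r})
      ((XS_le.2 fun r hr t => x_mem_comm hT hq hr.1 hr.2 t) h4))) (mem_sup_left (mem_sup_left hg))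
    simpa [C.x_neg] using h5)
  refine ⟨J, le_antisymm h1 fun u hu => ?_⟩
  obtain ⟨a, ha, y, hy, rfl⟩ := (mem_sup_iff_of_le_normalizer (hY.trans (C.U_le_B.trans hB))).1
    (h2.ge (C.UJ_le_U J hu))
  have h3 : y ∈ C.UJ J ⊓ C.LJ J := ⟨by simpa using mul_mem (inv_mem (h1 ha)) hu,
    mem_sup_right (C.XS_mono (fun _ h => h.2) hy)⟩
  rw [hF.UJ_inf_LJ, mem_bot] at h3
  simpa [h3] using ha

omit [Fintype Φ] in
theorem sep_of_pair {i j : ι} {n : ℕ} (hn : ∀ m : ℕ, 0 < m → m ≤ n → ∃ t : Fˣ, t ^ m ≠ 1)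
    (h : ∃ r, (R.pair r (R.simple i) = 0 ∧ 0 < R.pair r (R.simple j) ∧ R.pair r (R.simple j) ≤ n) ∨
      (R.pair r (R.simple j) = 0 ∧ 0 < R.pair r (R.simple i) ∧ R.pair r (R.simple i) ≤ n)) :
    ∃ r, ∃ t : Fˣ, (R.pair r (R.simple i) = 0 ∧ t ^ R.pair r (R.simple j) ≠ 1) ∨
      (R.pair r (R.simple j) = 0 ∧ t ^ R.pair r (R.simple i) ≠ 1) := by
  obtain ⟨r, ⟨h1, h2, h3⟩ | ⟨h1, h2, h3⟩⟩ := h <;>
    obtain ⟨m, hm⟩ := Int.eq_ofNat_of_zero_le h2.le <;>
    obtain ⟨t, ht⟩ := hn m (by omega) (by omega)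
  exacts [⟨r, t, .inl ⟨h1, by rwa [hm, zpow_natCast]⟩⟩, ⟨r, t, .inr ⟨h1, by rwa [hm, zpow_natCast]⟩⟩]

theorem exists_pow_ne [Fintype F] {m : ℕ} (h0 : 0 < m) (h : m + 2 ≤ Fintype.card F) :
    ∃ t : Fˣ, t ^ m ≠ 1 := by
  classical
  obtain ⟨t, ht⟩ := IsCyclic.exists_ofOrder_eq_natCard (α := Fˣ)
  refine ⟨t, fun e => ?_⟩
  have := Nat.le_of_dvd h0 (orderOf_dvd_of_pow_eq_one e)
  rw [ht, Nat.card_units, Nat.card_eq_fintype_card] at this
  omega

theorem exists_three [Fintype F] (h : 4 ≤ Fintype.card F) :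
    ∃ a b c : F, a ≠ 0 ∧ b ≠ 0 ∧ c ≠ 0 ∧ a ≠ b ∧ a ≠ c ∧ b ≠ c := by
  classical
  obtain ⟨a, b, c, ha, hb, hc, h1, h2, h3⟩ := Finset.two_lt_card_iff.1
    (show 2 < (Finset.univ.erase (0 : F)).card by simp; omega)
  exact ⟨a, b, c, by simpa using ha, by simpa using hb, by simpa using hc, h1, h2, h3⟩

open Cfsg.Lie in
theorem Checked.weakly_closed [Fintype F] {D : ChevalleyDatum} {c : Cert} (h : Checked D c) {n : ℕ}
    (hn : n + 2 ≤ Fintype.card F) (hq : (∀ r s, h.R.ln r = h.R.ln s) ∨ 2 ≤ n)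
    (hs : ∀ i j, i ≠ j → ∃ r, (h.R.pair r (h.R.simple i) = 0 ∧ 0 < h.R.pair r (h.R.simple j) ∧
      h.R.pair r (h.R.simple j) ≤ n) ∨ (h.R.pair r (h.R.simple j) = 0 ∧
        0 < h.R.pair r (h.R.simple i) ∧ h.R.pair r (h.R.simple i) ≤ n))
    {X : Subgroup (GL D.Idx F)} (hXU : X ≤ D.posUnipotent F)
    (hw : ∀ g ∈ D.group F, X.map (MulAut.conj g).toMonoidHom ≤ D.posUnipotent F →
      X.map (MulAut.conj g).toMonoidHom = X) :
    ∃ J : Set ℕ, (∀ j ∈ J, j < D.rank) ∧ X = D.unipotentRadical F J := by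
  rw [h.posUnipotent_eq] at hXU hw
  rw [h.group_eq] at hw
  obtain ⟨J, rfl⟩ := eq_UJ (h.faithful F) (h.strongComm F) (hq.imp_right fun _ => exists_three (by omega))
    (fun i j e => sep_of_pair (fun m h1 h2 => exists_pow_ne h1 (by omega)) (hs i j e)) hXU hw
  refine ⟨Fin.val '' J, by rintro _ ⟨j, -, rfl⟩; exact j.2, ?_⟩
  rw [h.unipotentRadical_eq, Set.preimage_image_eq _ Fin.val_injective]

end Cfsg.Lib.WCU
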